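import Cfsg.Agent.H757.Sf.Five

/-! # S5176, section 5.0, part 2: order and involutions of `S`, case (A8) (interface: tools/plans/S5176_five.lean) -/
set_option autoImplicit false
set_option linter.unusedSectionVars false

open Cfsg Cfsg.FusionSystem Cfsg.Agent.H752 Cfsg.Agent.H784.SF Cfsg.Agent.H784.Q

universe u

namespace Cfsg.Agent.H784.Q

variable {Ω : Type u} [Group Ω] {S : Subgroup Ω} [Finite S] {F : FusionSystem S} {R : Subgroup Ω} {a b z r : Ω} {m : ℕ}
  {t c d k w : Ω} {β : Ω → Ω}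

theorem odd_sq_ne {g : Ω} (hg : orderOf g = 2 ^ m) (hm : 3 ≤ m) (n : ℤ) : g ^ (2 * n + 1) * g ^ (2 * n + 1) ≠ 1 := by
  intro h1
  rw [← zpow_add] at h1
  have h2 := orderOf_dvd_iff_zpow_eq_one.mpr h1
  rw [hg] at h2
  have h3 : (4 : ℤ) ∣ 2 * n + 1 + (2 * n + 1) := by
    refine dvd_trans ?_ h2
    obtain ⟨m', rfl⟩ : ∃ m', m = m' + 2 := ⟨m - 2, by omega⟩
    exact ⟨2 ^ m', by push_cast; ring⟩
  omega

theorem card_double {A B : Subgroup Ω} [Finite B] {g : Ω} (hAB : A ≤ B) (hgB : g ∈ B) (hgA : g ∉ A)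
    (hB : ∀ x ∈ B, x ∈ A ∨ ∃ y ∈ A, x = y * g) : Nat.card B = 2 * Nat.card A := by
  have hfA : Finite A := H802.finite_of_le hAB
  have h1 : (B : Set Ω) = (A : Set Ω) ∪ (fun x => x * g) '' (A : Set Ω) := by
    ext x
    constructor
    · intro hx
      rcases hB x hx with h | ⟨y, hy, rfl⟩
      · exact Or.inl h
      · exact Or.inr ⟨y, hy, rfl⟩
    · rintro (hx | ⟨y, hy, rfl⟩)
      · exact hAB hx
      · exact mul_mem (hAB hy) hgB
  have h2 : Disjoint (A : Set Ω) ((fun x => x * g) '' (A : Set Ω)) := by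
    rw [Set.disjoint_left]
    rintro _ hx ⟨y, hy, rfl⟩
    exact hgA (by simpa using mul_mem (inv_mem hy) hx)
  have h3 : ((B : Set Ω)).ncard = 2 * (A : Set Ω).ncard := by
    rw [h1, Set.ncard_union_eq h2 (Set.toFinite _) ((Set.toFinite _).image _),
      Set.ncard_image_of_injective _ (mul_left_injective g), two_mul]
  exact h3

section
variable (h : CaseA8 F R a b z r m t c d k w β)
include h

theorem CaseA8.sq_out_b (i : ℤ) : a ^ i * b * (a ^ i * b) = z := by
  have h1 := h.sit.qr.ba_zpow i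
  calc a ^ i * b * (a ^ i * b) = a ^ i * (b * a ^ i) * b := by group
    _ = b * b := by rw [h1]; group
    _ = z := h.sit.qr.bb

theorem CaseA8.sq_out_w (i : ℤ) : k ^ i * w * (k ^ i * w) = z := by
  have h1 := h.wk_zpow i
  calc k ^ i * w * (k ^ i * w) = k ^ i * (w * k ^ i) * w := by group
    _ = w * w := by rw [h1]; group
    _ = z := h.ww

theorem CaseA8.invol {x : Ω} (hx : x ∈ S) (h1 : x ≠ 1) (h2 : x * x = 1) :
    x = z ∨ (∃ r₁ ∈ R, ∃ c₁ ∈ centralizerIn S R, x = r₁ * c₁ ∧ r₁ * r₁ = z ∧ c₁ * c₁ = z) ∨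
      (∃ y ∈ Subgroup.zpowers a ⊔ Subgroup.zpowers d, (x = d * (y * y) * (b * w) ∨ x = d * a * (y * y) * (b * w))) := by
  have q := h.sit.qr
  have hm := q.m3
  have hcka : Commute k a := h.ka
  have hckb : Commute k b := h.kb
  have hcda : Commute d a := h.da
  have hcdk : Commute d k := h.dk
  have haR : ∀ i : ℤ, a ^ i ∈ R := fun i => Subgroup.zpow_mem _ q.aR i
  have hkK : ∀ i : ℤ, k ^ i ∈ centralizerIn S R := fun i => Subgroup.zpow_mem _ h.kK i
  have hzz : ∀ y : Ω, y * z = 1 → y = z := fun y hy => by rw [mul_eq_one_iff_eq_inv.mp hy, q.zinv]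
  have hok : orderOf k = 2 ^ m := h.ok
  have e1 : ∀ i l : ℤ, b * (a ^ i * k ^ l) = a ^ (-i) * k ^ l * b := by
    intro i l
    calc b * (a ^ i * k ^ l) = b * a ^ i * k ^ l := by group
      _ = (a ^ i)⁻¹ * (b * k ^ l) := by rw [q.ba_zpow]; group
      _ = (a ^ i)⁻¹ * (k ^ l * b) := by rw [(hckb.zpow_left l).eq]
      _ = _ := by rw [zpow_neg]; group
  have e2 : ∀ i l : ℤ, w * (a ^ i * k ^ l) = a ^ i * k ^ (-l) * w := by
    intro i l
    calc w * (a ^ i * k ^ l) = w * a ^ i * k ^ l := by group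
      _ = a ^ i * (w * k ^ l) := by rw [((show Commute w a from h.wa).zpow_right i).eq]; group
      _ = _ := by rw [h.wk_zpow, zpow_neg]; group
  have e3 : ∀ i l : ℤ, d * (a ^ i * k ^ l) = a ^ i * k ^ l * d := fun i l =>
    ((hcda.zpow_right i).mul_right (hcdk.zpow_right l)).eq
  obtain ⟨y, hy, hxy⟩ := h.gen x hx
  by_cases hxM : x = y
  · -- `x ∈ M`
    subst hxM
    rcases h.omega hy h2 with h3 | h3 | h3 | h3
    · exact absurd h3 h1
    · exact Or.inl h3
    · exact Or.inr (Or.inl ⟨r, q.rR, c, h.cK, h3.trans h.tc, q.rr, h.cc⟩)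
    · refine Or.inr (Or.inl ⟨r, q.rR, c * z, mul_mem h.cK h.sit.zK, ?_, q.rr, ?_⟩)
      · rw [h3, h.tc, mul_assoc]
      · calc c * z * (c * z) = c * (z * c) * z := by group
          _ = c * c * (z * z) := by rw [← h.sit.z_centr c h.cK.1]; group
          _ = z := by rw [h.cc, q.zz, mul_one]
  obtain ⟨i, l, hyc⟩ := h.M_cases hy
  rcases hyc with rfl | rfl
  · rcases hxy with hxy | rfl | rfl | rfl
    · exact absurd hxy hxM
    · -- `a^i k^l b`
      have h3 : k ^ l * k ^ l = z := by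
        apply hzz
        rw [← h2]
        calc k ^ l * k ^ l * z = a ^ i * (a ^ (-i) * k ^ l) * k ^ l * (b * b) := by rw [q.bb, zpow_neg]; group
          _ = a ^ i * k ^ l * (a ^ (-i) * k ^ l * b) * b := by
            have := (hcka.zpow_zpow l (-i)).eq
            calc a ^ i * (a ^ (-i) * k ^ l) * k ^ l * (b * b) = a ^ i * (k ^ l * a ^ (-i)) * k ^ l * (b * b) := by rw [this]
              _ = _ := by group
          _ = a ^ i * k ^ l * b * (a ^ i * k ^ l * b) := by rw [← e1]; group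
      refine Or.inr (Or.inl ⟨a ^ i * b, mul_mem (haR i) q.bR, k ^ l, hkK l, ?_, h.sq_out_b i, h3⟩)
      rw [mul_assoc, (hckb.zpow_left l).eq, mul_assoc]
    · -- `a^i k^l w`
      have h3 : a ^ i * a ^ i = z := by
        apply hzz
        rw [← h2]
        calc a ^ i * a ^ i * z = a ^ i * a ^ i * (w * w) := by rw [h.ww]
          _ = a ^ i * (k ^ l * a ^ i) * k ^ (-l) * w * w := by rw [(hcka.zpow_zpow l i).eq]; group
          _ = a ^ i * k ^ l * (a ^ i * k ^ (-l) * w) * w := by group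
          _ = a ^ i * k ^ l * w * (a ^ i * k ^ l * w) := by rw [← e2]; group
      exact Or.inr (Or.inl ⟨a ^ i, haR i, k ^ l * w, mul_mem (hkK l) h.wK, by group, h3, h.sq_out_w l⟩)
    · refine Or.inr (Or.inl ⟨a ^ i * b, mul_mem (haR i) q.bR, k ^ l * w, mul_mem (hkK l) h.wK, ?_, h.sq_out_b i, h.sq_out_w l⟩)
      calc a ^ i * k ^ l * (b * w) = a ^ i * (k ^ l * b) * w := by group
        _ = _ := by rw [(hckb.zpow_left l).eq]; group
  · rcases hxy with hxy | rfl | rfl | rfl
    · exact absurd hxy hxM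
    · -- `a^i k^l d b`
      exfalso
      have h3 : k ^ (2 * l + 1) = z := by
        apply hzz
        rw [← h2]
        have h4 : b * (a ^ i * k ^ l * d) = a ^ (-i) * k ^ l * (d * a⁻¹) * b := by
          calc b * (a ^ i * k ^ l * d) = b * (a ^ i * k ^ l) * d := by group
            _ = a ^ (-i) * k ^ l * (b * d) := by rw [e1]; group
            _ = _ := by rw [h.bd]; group
        have h5 : a ^ i * k ^ l * d * (a ^ (-i) * k ^ l * (d * a⁻¹)) = k ^ (2 * l + 1) := by
          calc a ^ i * k ^ l * d * (a ^ (-i) * k ^ l * (d * a⁻¹))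
              = a ^ i * k ^ l * (d * (a ^ (-i) * k ^ l)) * d * a⁻¹ := by group
            _ = a ^ i * (k ^ l * a ^ (-i)) * k ^ l * (d * d) * a⁻¹ := by rw [e3]; group
            _ = k ^ l * k ^ l * (k * a) * a⁻¹ := by rw [(hcka.zpow_zpow l (-i)).eq, h.dd, zpow_neg]; group
            _ = k ^ (2 * l + 1) := by group
        calc k ^ (2 * l + 1) * z = a ^ i * k ^ l * d * (a ^ (-i) * k ^ l * (d * a⁻¹)) * (b * b) := by rw [h5, q.bb]
          _ = a ^ i * k ^ l * d * (a ^ (-i) * k ^ l * (d * a⁻¹) * b) * b := by group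
          _ = a ^ i * k ^ l * d * b * (a ^ i * k ^ l * d * b) := by rw [← h4]; group
      exact odd_sq_ne hok hm l (by rw [h3, q.zz])
    · -- `a^i k^l d w`
      exfalso
      have h3 : a ^ (2 * i + 1) = z := by
        apply hzz
        rw [← h2]
        have h4 : w * (a ^ i * k ^ l * d) = a ^ i * k ^ (-l) * (d * k⁻¹) * w := by
          calc w * (a ^ i * k ^ l * d) = w * (a ^ i * k ^ l) * d := by group
            _ = a ^ i * k ^ (-l) * (w * d) := by rw [e2]; group
            _ = a ^ i * k ^ (-l) * (d * (w * k)) := by rw [h.wd2]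
            _ = _ := by rw [h.wk]; group
        have h5 : a ^ i * k ^ l * d * (a ^ i * k ^ (-l) * (d * k⁻¹)) = a ^ (2 * i + 1) := by
          calc a ^ i * k ^ l * d * (a ^ i * k ^ (-l) * (d * k⁻¹))
              = a ^ i * k ^ l * (d * (a ^ i * k ^ (-l))) * d * k⁻¹ := by group
            _ = a ^ i * (k ^ l * a ^ i) * k ^ (-l) * (d * d) * k⁻¹ := by rw [e3]; group
            _ = a ^ i * (a ^ i * k ^ l) * k ^ (-l) * (a * k) * k⁻¹ := by
              rw [(hcka.zpow_zpow l i).eq, h.dd, h.ka]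
            _ = a ^ (2 * i + 1) := by group
        calc a ^ (2 * i + 1) * z = a ^ i * k ^ l * d * (a ^ i * k ^ (-l) * (d * k⁻¹)) * (w * w) := by rw [h5, h.ww]
          _ = a ^ i * k ^ l * d * (a ^ i * k ^ (-l) * (d * k⁻¹) * w) * w := by group
          _ = a ^ i * k ^ l * d * w * (a ^ i * k ^ l * d * w) := by rw [← h4]; group
      exact odd_sq_ne q.oa hm i (by rw [h3, q.zz])
    · -- `a^i k^l d (b w)`
      refine Or.inr (Or.inr ?_)
      have hk2 : k ^ l = d ^ l * d ^ l * a ^ (-l) := by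
        rw [h.hk, ((hcda.mul_left hcda).inv_right).mul_zpow, (Commute.refl d).mul_zpow, inv_zpow, zpow_neg]
      have hl : a ^ i * k ^ l * d = d * (a ^ (i - l) * (d ^ l * d ^ l)) := by
        have h6 : Commute (a ^ (i - l)) (d ^ l * d ^ l) :=
          (hcda.symm.zpow_zpow (i - l) l).mul_right (hcda.symm.zpow_zpow (i - l) l)
        have h7 : a ^ i * k ^ l = a ^ (i - l) * (d ^ l * d ^ l) := by
          rw [hk2]
          have h8 : Commute (d ^ l * d ^ l) (a ^ (-l)) :=
            (hcda.zpow_zpow l (-l)).mul_left (hcda.zpow_zpow l (-l))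
          rw [h8.eq, ← mul_assoc, ← zpow_add, ← sub_eq_add_neg]
        rw [h7]
        have h9 : Commute d (a ^ (i - l) * (d ^ l * d ^ l)) :=
          (hcda.zpow_right (i - l)).mul_right (((Commute.refl d).zpow_right l).mul_right ((Commute.refl d).zpow_right l))
        exact h9.eq.symm
      have hsq : ∀ n : ℤ, a ^ (2 * n) * (d ^ l * d ^ l) = (a ^ n * d ^ l) * (a ^ n * d ^ l) := by
        intro n
        have h6 := (hcda.zpow_zpow l n).eq
        calc a ^ (2 * n) * (d ^ l * d ^ l) = a ^ n * (a ^ n * d ^ l) * d ^ l := by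
              rw [two_mul, zpow_add]; group
          _ = a ^ n * (d ^ l * a ^ n) * d ^ l := by rw [h6]
          _ = _ := by group
      have hyM : ∀ n : ℤ, a ^ n * d ^ l ∈ Subgroup.zpowers a ⊔ Subgroup.zpowers d := fun n =>
        mul_mem (Subgroup.zpow_mem _ h.aM n) (Subgroup.zpow_mem _ h.dM l)
      rcases Int.even_or_odd' (i - l) with ⟨n, hn | hn⟩
      · exact ⟨a ^ n * d ^ l, hyM n, Or.inl (by rw [hl, hn, hsq])⟩
      · refine ⟨a ^ n * d ^ l, hyM n, Or.inr ?_⟩
        rw [hl, hn, ← hsq, add_comm, zpow_add, zpow_one]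
        group

theorem CaseA8.card_M : Nat.card (Subgroup.zpowers a ⊔ Subgroup.zpowers d : Subgroup Ω) = (2 ^ m) ^ 2 := by
  let f : Subgroup.zpowers a × Subgroup.zpowers d → (Subgroup.zpowers a ⊔ Subgroup.zpowers d : Subgroup Ω) := fun p =>
    ⟨(p.1 : Ω) * (p.2 : Ω), mul_mem (Subgroup.mem_sup_left p.1.2) (Subgroup.mem_sup_right p.2.2)⟩
  have hf : Function.Bijective f := by
    constructor
    · rintro ⟨⟨x, hx⟩, ⟨y, hy⟩⟩ ⟨⟨x', hx'⟩, ⟨y', hy'⟩⟩ heq
      have h1 : x * y = x' * y' := congrArg Subtype.val heq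
      have h2 : x'⁻¹ * x = y' * y⁻¹ := by
        rw [eq_mul_inv_iff_mul_eq, mul_assoc, h1, inv_mul_cancel_left]
      have h3 : x'⁻¹ * x ∈ Subgroup.zpowers a ⊓ Subgroup.zpowers d :=
        ⟨(Subgroup.zpowers a).mul_mem ((Subgroup.zpowers a).inv_mem hx') hx,
          by rw [h2]; exact (Subgroup.zpowers d).mul_mem hy' ((Subgroup.zpowers d).inv_mem hy)⟩
      rw [h.disj, Subgroup.mem_bot] at h3
      have h4 : x = x' := (inv_mul_eq_one.mp h3).symm
      subst h4
      have h5 : y = y' := mul_left_cancel h1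
      subst h5
      rfl
    · rintro ⟨x, hx⟩
      obtain ⟨i, j, rfl⟩ := h.mem_M.mp hx
      exact ⟨⟨⟨a ^ i, Subgroup.npow_mem_zpowers a i⟩, ⟨d ^ j, Subgroup.npow_mem_zpowers d j⟩⟩, rfl⟩
  rw [← Nat.card_eq_of_bijective f hf, Nat.card_prod, Nat.card_zpowers, Nat.card_zpowers, h.sit.qr.oa, h.od, pow_two]

theorem CaseA8.card_C : Nat.card (CS S t) = 2 * (2 ^ m) ^ 2 := by
  have hfC : Finite (CS S t) := H802.finite_of_le inf_le_left
  rw [← h.card_M]
  exact card_double h.MC h.bwt h.bw_out fun x hx => (h.CSt x).mp hx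

theorem CaseA8.card : Nat.card S = 4 * (2 ^ m) ^ 2 := by
  have h1 : Nat.card S = 2 * Nat.card (CS S t) := by
    have hbn : b ∉ CS S t := by
      have := h.not_comm_b (one_mem _)
      rwa [one_mul] at this
    refine card_double inf_le_left h.sit.bS hbn fun x hx => ?_
    obtain ⟨y, hy, hxy⟩ := h.gen x hx
    rcases hxy with rfl | rfl | rfl | rfl
    · exact Or.inl (h.MC hy)
    · exact Or.inr ⟨y, h.MC hy, rfl⟩
    · refine Or.inr ⟨y * (b * w)⁻¹ * z, ?_, ?_⟩
      · refine mul_mem (mul_mem (h.MC hy) (inv_mem h.bwt)) ?_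
        exact mem_cent.mpr ⟨h.sit.zS, (h.sit.z_centr t h.tS).symm⟩
      · have hbw : (b * w)⁻¹ = b * w := inv_eq_of_mul_eq_one_right h.ii
        calc y * w = y * w * (z * z) := by rw [h.sit.qr.zz, mul_one]
          _ = y * w * z * z := by group
          _ = y * w * (b * b) * z := by rw [h.sit.qr.bb]
          _ = y * (w * b) * b * z := by group
          _ = y * (b * w) * (b * z) := by rw [h.wb]; group
          _ = y * (b * w)⁻¹ * (z * b) := by rw [h.sit.z_centr b h.sit.bS, hbw]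
          _ = y * (b * w)⁻¹ * z * b := by group
    · exact Or.inl (mul_mem (h.MC hy) h.bwt)
  rw [h1, h.card_C]
  ring

end

end Cfsg.Agent.H784.Q
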